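import Cfsg.Agent.H371.EP.OmPoint
import Cfsg.Agent.H778.EP.OmAsm

/-!
# S3499: the row `OmPoint` of the assembly `H778.EP.OmAsm`
-/

set_option autoImplicit false

namespace Cfsg.Agent.H371.EP

theorem omPoint : Cfsg.Agent.H778.EP.OmPoint := by
  intro Q _ _ _ A Γ h F _ _ ι _ _ Qf m h7 hQ hC
  obtain ⟨v, hv, hA⟩ := hC
  exact row_point_stab h m h7 hQ hv hA

end Cfsg.Agent.H371.EP
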